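import Mathlib
import Cfsg.Agent.CoprimeAction.Hyperplane

/-!
Fixed-point-free automorphisms of order dividing four (Gorenstein-Herstein).
-/

set_option autoImplicit false

namespace CfsgLib.FpfFour

variable {G : Type*} [Group G] [Finite G]

/-- `x ↦ x⁻¹ σ x` is onto on every invariant subgroup. -/
theorem exists_inv_mul_eq (σ : MulAut G) (M : Subgroup G) (hM : ∀ x ∈ M, σ x ∈ M)
    (hfix : ∀ x ∈ M, σ x = x → x = 1) {y : G} (hy : y ∈ M) : ∃ x ∈ M, x⁻¹ * σ x = y := by
  classical
  let f : M → M := fun x => ⟨(x : G)⁻¹ * σ x, mul_mem (inv_mem x.2) (hM x x.2)⟩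
  have hinj : Function.Injective f := by
    intro x z e
    have e' : (x : G)⁻¹ * σ x = (z : G)⁻¹ * σ z := congrArg Subtype.val e
    have h1 : σ ((z : G) * (x : G)⁻¹) = z * (x : G)⁻¹ := by
      rw [map_mul, map_inv, mul_inv_eq_iff_eq_mul, mul_assoc, e', mul_inv_cancel_left]
    exact Subtype.ext (mul_inv_eq_one.1 (hfix _ (mul_mem z.2 (inv_mem x.2)) h1)).symm
  obtain ⟨x, hx⟩ := (Finite.injective_iff_surjective.1 hinj) ⟨y, hy⟩
  exact ⟨x, x.2, congrArg Subtype.val hx⟩

/-- An element fixed by `σ²` is inverted by a fixed-point-free `σ`. -/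
theorem map_eq_inv (σ : MulAut G) (hfix : ∀ x, σ x = x → x = 1) {c : G} (hc : σ (σ c) = c) : σ c = c⁻¹ := by
  let M : Subgroup G :=
    { carrier := {x | σ (σ x) = x}
      one_mem' := by simp
      mul_mem' := fun {a b} (ha : σ (σ a) = a) (hb : σ (σ b) = b) => by simp [ha, hb]
      inv_mem' := fun {a} (ha : σ (σ a) = a) => by simp [ha] }
  obtain ⟨x, hx, rfl⟩ := exists_inv_mul_eq σ M (fun x (hx : σ (σ x) = x) => (congrArg σ hx : _))
    (fun x _ => hfix x) (show c ∈ M from hc)
  have hx' : σ (σ x) = x := hx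
  rw [map_mul, map_inv, hx', mul_inv_rev, inv_inv]

theorem odd_card (σ : MulAut G) (h4 : σ ^ 4 = 1) (hfix : ∀ x, σ x = x → x = 1) : Odd (Nat.card G) := by
  haveI : Fact (Nat.Prime 2) := ⟨Nat.prime_two⟩
  have hP : IsPGroup 2 (Subgroup.zpowers σ) := by
    intro x
    refine ⟨2, ?_⟩
    obtain ⟨k, hk⟩ := x.2
    refine Subtype.ext ?_
    rw [SubgroupClass.coe_pow, ← hk, show (2 : ℕ) ^ 2 = 4 from rfl, ← zpow_natCast, ← zpow_mul, mul_comm,
      zpow_mul, zpow_natCast, h4, one_zpow]
    rfl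
  have h := hP.card_modEq_card_fixedPoints G
  have h1 : MulAction.fixedPoints (Subgroup.zpowers σ) G = ({1} : Set G) := by
    ext g
    constructor
    · exact fun hg => hfix g (hg ⟨σ, Subgroup.mem_zpowers σ⟩)
    · rintro rfl ⟨m, hm⟩
      exact map_one m
  rw [h1, Nat.card_coe_set_eq ({1} : Set G), Set.ncard_singleton] at h
  rw [Nat.odd_iff]
  exact h

/-- In a group of odd order an element whose square fixes a point fixes it. -/
theorem fixed_of_sq {M V : Type*} [Group M] [Finite M] [MulAction M V] (hodd : Odd (Nat.card M))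
    {x : M} {v : V} (h : x ^ 2 • v = v) : x • v = v := by
  have hord : Odd (orderOf x) := Odd.of_dvd_nat hodd (orderOf_dvd_natCard x)
  obtain ⟨k, hk⟩ := exists_pow_eq_self_of_coprime (x := x) (n := 2) (Nat.coprime_two_left.2 hord)
  have h2 : (x ^ 2) ^ k • v = v := by
    induction k generalizing x with
    | zero => simp
    | succ k ih => rw [pow_succ', mul_smul]; rw [show (x ^ 2) ^ k • v = v by
        clear ih hk hord; induction k with
        | zero => simp
        | succ j ihj => rw [pow_succ', mul_smul, ihj, h], h]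
  rwa [hk] at h2

variable {V : Type*} [CommGroup V] [Finite V]

/-- Fixed points of a subgroup. -/
def Fix (φ : G →* MulAut V) (B : Subgroup G) : Subgroup V where
  carrier := {v | ∀ b ∈ B, φ b v = v}
  one_mem' := fun b _ => map_one (φ b)
  mul_mem' := fun {u w} hu hw b hb => by rw [map_mul, hu b hb, hw b hb]
  inv_mem' := fun {u} hu b hb => by rw [map_inv, hu b hb]

/-- The square of `σ` fixes the acting group. -/
theorem core_fixed (φ : G →* MulAut V) (hinj : Function.Injective φ) (hsol : Group.IsSolvable G)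
    {q : ℕ} [Fact q.Prime] (hVq : ∀ v : V, v ^ q = 1) (hV1 : Nontrivial V)
    (σ : MulAut G) (s : MulAut V) (hσ4 : σ ^ 4 = 1) (hs4 : s ^ 4 = 1)
    (hcompat : ∀ g v, s (φ g v) = φ (σ g) (s v))
    (hσf : ∀ x, σ x = x → x = 1) (hsf : ∀ v, s v = v → v = 1)
    (hirr : ∀ U : Subgroup V, (∀ g, ∀ u ∈ U, φ g u ∈ U) → (∀ u ∈ U, s u ∈ U) → U = ⊥ ∨ U = ⊤) :
    ∀ g : G, σ (σ g) = g := by
  classical
  have hoddG := odd_card σ hσ4 hσf
  have hoddV := odd_card s hs4 hsf
  have hmulφ : ∀ (x y : G) (v : V), φ (x * y) v = φ x (φ y v) := fun x y v => by rw [map_mul]; rfl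
  have honeφ : ∀ v : V, φ 1 v = v := fun v => by rw [map_one]; rfl
  letI : MulAction G V := { smul := fun g v => φ g v, one_smul := honeφ, mul_smul := hmulφ }
  have hfix2 : ∀ (x : G) (v : V), φ (x ^ 2) v = v → φ x v = v := fun x v h =>
    fixed_of_sq (M := G) (V := V) hoddG (x := x) (v := v) h
  have hsq1 : ∀ {M : Type _} [Group M] [Finite M], Odd (Nat.card M) → ∀ x : M, x ^ 2 = 1 → x = 1 := by
    intro M _ _ hM x hx
    refine orderOf_eq_one_iff.1 (Nat.eq_one_of_dvd_coprimes ?_ (orderOf_dvd_natCard x) (orderOf_dvd_of_pow_eq_one hx))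
    exact Nat.coprime_two_right.2 hM
  let τ : MulAut G := σ * σ
  let t : MulAut V := s * s
  have hττ : ∀ x, τ (τ x) = x := fun x => by
    change (σ * σ * (σ * σ)) x = x
    rw [show σ * σ * (σ * σ) = 1 by rw [← hσ4]; rfl]; rfl
  have htt : ∀ v, t (t v) = v := fun v => by
    change (s * s * (s * s)) v = v
    rw [show s * s * (s * s) = 1 by rw [← hs4]; rfl]; rfl
  have htc : ∀ g v, t (φ g v) = φ (τ g) (t v) := fun g v => by
    change s (s (φ g v)) = _
    rw [hcompat, hcompat]; rfl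
  -- the elements fixed by `τ`
  have hCinv : ∀ c, τ c = c → σ c = c⁻¹ := fun c hc => map_eq_inv σ hσf hc
  have hV0inv : ∀ v, t v = v → s v = v⁻¹ := fun v hv => map_eq_inv s hsf hv
  have hCcomm : ∀ c d, τ c = c → τ d = d → c * d = d * c := by
    intro c d hc hd
    have h1 : σ (c * d) = (c * d)⁻¹ := hCinv _ (by change σ (σ (c * d)) = _; rw [map_mul, map_mul]; exact congrArg₂ (· * ·) hc hd)
    rw [map_mul, hCinv c hc, hCinv d hd, mul_inv_rev] at h1
    have := congrArg (·⁻¹) h1
    simpa using this.symm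
  have hF1 : ∀ c, τ c = c → ∀ v, t v = v → φ c v = v := by
    intro c hc v hv
    have h1 : s (φ c v) = (φ c v)⁻¹ := hV0inv _ (by rw [htc, hc, hv])
    rw [hcompat, hCinv c hc, hV0inv v hv, map_inv, inv_inj] at h1
    refine hfix2 c v ?_
    rw [pow_two, hmulφ, ← h1, ← hmulφ, mul_inv_cancel, honeφ]
  -- trivial case
  by_cases htriv : (⊤ : Subgroup G) = ⊥
  · intro g
    have e : ∀ x : G, x = 1 := fun x => Subgroup.mem_bot.1 (htriv ▸ Subgroup.mem_top x)
    rw [e g, map_one, map_one]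
  -- a normal invariant elementary abelian subgroup
  obtain ⟨A, r, hr, hAn, hAσ, hA1, hAexp, hAcomm⟩ : ∃ (A : Subgroup G) (r : ℕ), r.Prime ∧ A.Normal ∧
      (∀ a ∈ A, σ a ∈ A) ∧ A ≠ ⊥ ∧ (∀ a ∈ A, a ^ r = 1) ∧ IsMulCommutative A := by
    obtain ⟨n, hn⟩ := (isSolvable_def G).1 hsol
    have hex : ∃ m, derivedSeries G m = ⊥ := ⟨n, hn⟩
    have hm0 : Nat.find hex ≠ 0 := fun e => by
      have h0 := Nat.find_spec hex
      rw [e, derivedSeries_zero] at h0
      exact htriv h0
    obtain ⟨k, hk⟩ := Nat.exists_eq_succ_of_ne_zero hm0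
    set D := derivedSeries G k with hD
    have hD1 : D ≠ ⊥ := Nat.find_min hex (by omega)
    have hDc : ∀ x ∈ D, ∀ y ∈ D, x * y = y * x := by
      intro x hx y hy
      have h0 := Nat.find_spec hex
      rw [hk, derivedSeries_succ, Subgroup.commutator_eq_bot_iff_le_centralizer] at h0
      exact (Subgroup.mem_centralizer_iff.1 (h0 hx) y hy).symm
    haveI hDch : D.Characteristic := derivedSeries_characteristic G k
    obtain ⟨r, hr, hrd⟩ := Nat.exists_prime_and_dvd (fun e => hD1 (Subgroup.eq_bot_of_card_eq D e))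
    haveI := Fact.mk hr
    let A : Subgroup G :=
      { carrier := {x | x ∈ D ∧ x ^ r = 1}
        one_mem' := ⟨one_mem D, one_pow r⟩
        mul_mem' := fun {a b} ha hb => ⟨mul_mem ha.1 hb.1, by
          rw [Commute.mul_pow (hDc a ha.1 b hb.1), ha.2, hb.2, mul_one]⟩
        inv_mem' := fun {a} ha => ⟨inv_mem ha.1, by rw [inv_pow, ha.2, inv_one]⟩ }
    refine ⟨A, r, hr, ⟨fun a ha g => ⟨Subgroup.Normal.conj_mem inferInstance a ha.1 g, by
      rw [conj_pow, ha.2, mul_one, mul_inv_cancel]⟩⟩, fun a ha => ⟨?_, by rw [← map_pow, ha.2, map_one]⟩, ?_,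
      fun a ha => ha.2, ⟨⟨fun x y => Subtype.ext (hDc x x.2.1 y y.2.1)⟩⟩⟩
    · have := (Subgroup.characteristic_iff_map_le.1 hDch σ) ⟨a, ha.1, rfl⟩
      exact this
    · obtain ⟨x, hx⟩ := exists_prime_orderOf_dvd_card' (G := D) r hrd
      refine fun hb => hr.ne_one ?_
      have hmem : (x : G) ∈ A := ⟨x.2, by rw [← SubgroupClass.coe_pow, ← hx, pow_orderOf_eq_one]; rfl⟩
      rw [hb, Subgroup.mem_bot] at hmem
      rw [← hx, orderOf_eq_one_iff]
      exact Subtype.ext hmem
  haveI := hAn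
  haveI := hAcomm
  haveI := Fact.mk hr
  have hAτ : ∀ a ∈ A, τ a ∈ A := fun a ha => hAσ _ (hAσ a ha)
  have hAc : ∀ a ∈ A, ∀ b ∈ A, a * b = b * a := fun a ha b hb =>
    congrArg Subtype.val (hAcomm.is_comm.comm (⟨a, ha⟩ : A) ⟨b, hb⟩)
  have hroot : ∀ a : G, ∃ k : ℕ, (a ^ 2) ^ k = a := fun a =>
    exists_pow_eq_self_of_coprime (Nat.coprime_two_left.2 (Odd.of_dvd_nat hoddG (orderOf_dvd_natCard a)))
  have hFixA : Fix φ A = ⊥ := by
    refine (hirr _ ?_ ?_).resolve_right fun e => hA1 ?_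
    · intro g u hu a ha
      have h := hu _ (hAn.conj_mem a ha g⁻¹)
      rw [inv_inv] at h
      calc φ a (φ g u) = φ g (φ (g⁻¹ * a * g) u) := by rw [← hmulφ, ← hmulφ]; congr 2; group
        _ = φ g u := by rw [h]
    · intro u hu a ha
      obtain ⟨b, hb, rfl⟩ := exists_inv_mul_eq σ A hAσ (fun x _ => hσf x) ha
      have hsymm : σ.symm (b⁻¹ * σ b) ∈ A := by
        have : σ.symm = σ ^ 3 := by
          rw [show (σ.symm : MulAut G) = σ⁻¹ from rfl, inv_eq_iff_mul_eq_one, ← pow_succ', hσ4]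
        rw [this]
        exact hAσ _ (hAσ _ (hAσ _ (mul_mem (inv_mem hb) (hAσ b hb))))
      have h := congrArg s (hu _ hsymm)
      rwa [hcompat, MulEquiv.apply_symm_apply] at h
    · rw [eq_bot_iff]
      intro a ha
      rw [Subgroup.mem_bot]
      apply hinj
      rw [map_one]
      exact MulEquiv.ext fun v => (e ▸ Subgroup.mem_top v : v ∈ Fix φ A) a ha
  have hcop : (Nat.card A).Coprime (Nat.card V) := by
    obtain ⟨i, hi⟩ := IsPGroup.iff_card.1 (show IsPGroup r A from fun x => ⟨1, Subtype.ext (by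
      rw [SubgroupClass.coe_pow, pow_one]; exact hAexp x x.2)⟩)
    obtain ⟨j, hj⟩ := IsPGroup.iff_card.1 (show IsPGroup q V from fun v => ⟨1, by rw [pow_one]; exact hVq v⟩)
    rw [hi, hj]
    refine Nat.Coprime.pow i j ((Nat.coprime_primes hr Fact.out).2 fun e => ?_)
    subst e
    have hmod := (show IsPGroup r A from fun x => ⟨1, Subtype.ext (by
      rw [SubgroupClass.coe_pow, pow_one]; exact hAexp x x.2)⟩).card_modEq_card_fixedPoints V
    have hfp : MulAction.fixedPoints A V = ({1} : Set V) := by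
      ext v
      constructor
      · intro hv
        have : v ∈ Fix φ A := fun a ha => hv ⟨a, ha⟩
        rwa [hFixA, Subgroup.mem_bot] at this
      · rintro rfl a
        exact map_one (φ a)
    rw [hfp, Nat.card_coe_set_eq ({1} : Set V), Set.ncard_singleton, hj] at hmod
    rcases j with _ | j
    · rw [pow_zero] at hj
      exact not_subsingleton V ((Nat.card_eq_one_iff_unique.1 hj).1)
    · rw [Nat.ModEq, pow_succ, Nat.mul_mod_left, Nat.mod_eq_of_lt hr.one_lt] at hmod
      exact zero_ne_one hmod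
  -- every subgroup containing all `Fix B`, `B` a hyperplane, is everything
  have hweights : ∀ W : Subgroup V, (∀ B ≤ A, B.relIndex A = r → Fix φ B ≤ W) → W = ⊤ := by
    intro W hW
    let inl : V →* SemidirectProduct V G φ := SemidirectProduct.inl
    let inr : G →* SemidirectProduct V G φ := SemidirectProduct.inr
    have hil : Function.Injective inl := SemidirectProduct.inl_injective
    have hir : Function.Injective inr := SemidirectProduct.inr_injective
    haveI : Finite (SemidirectProduct V G φ) := Finite.of_equiv _ SemidirectProduct.equivProd.symm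
    haveI : IsMulCommutative (A.map inr) := ⟨⟨by
      rintro ⟨_, a, ha, rfl⟩ ⟨_, b, hb, rfl⟩
      exact Subtype.ext (by simp only [Subgroup.coe_mul, ← map_mul, hAc a ha b hb])⟩⟩
    have h := CfsgLib.CoprimeAction.le_of_hyperplane_centralizers_le (p := r) (A := A.map inr)
      (K := inl.range) (W := W.map inl) (by rwa [Ne, Subgroup.map_eq_bot_iff_of_injective _ hir])
      (by rintro _ ⟨a, ha, rfl⟩; rw [← map_pow, hAexp a ha, map_one])
      (le_trans le_top (by
        haveI : (SemidirectProduct.inl : V →* SemidirectProduct V G φ).range.Normal := by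
          rw [SemidirectProduct.range_inl_eq_ker_rightHom]; infer_instance
        rw [Subgroup.normalizer_eq_top_iff.2 this]))
      (by rw [Subgroup.card_map_of_injective hir, ← Nat.card_congr (MonoidHom.ofInjective hil).toEquiv]; exact hcop)
      (by
        intro B hB hidx x hx
        obtain ⟨⟨v, rfl⟩, hxc⟩ := Subgroup.mem_inf.1 hx
        refine ⟨v, hW (B.comap inr) (fun b hb => ?_) ?_ fun b hb => ?_, rfl⟩
        · obtain ⟨a, ha, e⟩ := hB (show inr b ∈ B from hb)
          rwa [← hir e]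
        · rw [← hidx, ← Subgroup.relIndex_map_map_of_injective (B.comap inr) A hir,
            Subgroup.map_comap_eq_self (hB.trans (Subgroup.map_le_range _ _))]
        · apply hil
          change SemidirectProduct.inl (φ b v) = _
          rw [SemidirectProduct.inl_aut, map_inv, mul_inv_eq_iff_eq_mul]
          exact Subgroup.mem_centralizer_iff.1 hxc (inr b) hb |>.trans (by rfl))
    rw [eq_top_iff]
    intro v _
    obtain ⟨w, hw, e⟩ := h ⟨v, rfl⟩
    rwa [← hil e]
  -- two distinct hyperplanes have no common fixed point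
  have hhyp : ∀ B ≤ A, B.relIndex A = r → ∀ x ∈ A, x ∉ B → ∀ v ∈ Fix φ B, φ x v = v → v = 1 := by
    intro B hB hidx x hx hxB v hv hxv
    have hle : B ⊔ Subgroup.zpowers x ≤ A := sup_le hB (Subgroup.zpowers_le.2 hx)
    have he : B ⊔ Subgroup.zpowers x = A := by
      have h1 := Subgroup.relIndex_mul_relIndex B (B ⊔ Subgroup.zpowers x) A le_sup_left hle
      rw [CfsgLib.CoprimeAction.relIndex_sup_zpowers hB hx (hAexp x hx) hxB, hidx] at h1
      exact le_antisymm hle (Subgroup.relIndex_eq_one.1 (Nat.eq_of_mul_eq_mul_left hr.pos (h1.trans (mul_one r).symm)))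
    have : v ∈ Fix φ A := by
      let S : Subgroup G :=
        { carrier := {y | φ y v = v}
          one_mem' := honeφ v
          mul_mem' := fun {a b} (ha : φ a v = v) (hb : φ b v = v) => by
            show φ (a * b) v = v
            rw [hmulφ, hb, ha]
          inv_mem' := fun {a} (ha : φ a v = v) => by
            show φ a⁻¹ v = v
            conv_lhs => rw [← ha, ← hmulφ, inv_mul_cancel, honeφ] }
      intro a ha
      have hS : B ⊔ Subgroup.zpowers x ≤ S := sup_le hv (Subgroup.zpowers_le.2 hxv)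
      exact hS (he ▸ ha)
    rwa [hFixA, Subgroup.mem_bot] at this
  -- conjugates of hyperplanes
  have hconjB : ∀ (g : G) (B : Subgroup G), B ≤ A → B.relIndex A = r →
      B.map (MulAut.conj g).toMonoidHom ≤ A ∧ (B.map (MulAut.conj g).toMonoidHom).relIndex A = r ∧
      ∀ v ∈ Fix φ B, φ g v ∈ Fix φ (B.map (MulAut.conj g).toMonoidHom) := by
    intro g B hB hidx
    refine ⟨?_, ?_, ?_⟩
    · rintro _ ⟨b, hb, rfl⟩
      exact hAn.conj_mem b (hB hb) g
    · conv_lhs => rw [← Subgroup.Normal.map_conj_eq (H := A) g]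
      rw [← hidx]
      exact Subgroup.relIndex_map_map_of_injective B A (MulAut.conj g).injective
    · rintro v hv _ ⟨b, hb, rfl⟩
      change φ (g * b * g⁻¹) (φ g v) = φ g v
      rw [← hmulφ, inv_mul_cancel_right, hmulφ, hv b hb]
  -- `C` centralises `A`
  have hCA : ∀ c, τ c = c → ∀ a ∈ A, c * a = a * c := by
    intro c hc a ha
    suffices h : Fix φ (Subgroup.zpowers (c * a * c⁻¹ * a⁻¹)) = ⊤ by
      rw [← mul_inv_eq_iff_eq_mul, ← mul_inv_eq_one]
      apply hinj
      rw [map_one]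
      exact MulEquiv.ext fun v => (h ▸ Subgroup.mem_top v : v ∈ Fix φ _) _ (Subgroup.mem_zpowers _)
    refine hweights _ fun B hB hidx => ?_
    intro v hv
    rcases eq_or_ne v 1 with rfl | hv1
    · exact one_mem _
    suffices h : c * a * c⁻¹ * a⁻¹ ∈ B from fun b hb => hv b (Subgroup.zpowers_le.2 h hb)
    by_cases h0 : ∀ x ∈ A, τ x = x → x ∈ B
    · -- `τ` inverts `A` modulo `B`
      have hinv : ∀ x ∈ A, x * τ x ∈ B := fun x hx => h0 _ (mul_mem hx (hAτ x hx)) (by
        rw [map_mul, hττ, hAc _ (hAτ x hx) x hx])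
      have hBτ : ∀ x ∈ B, τ x ∈ B := fun x hx => by
        have := mul_mem (inv_mem hx) (hinv x (hB hx))
        rwa [inv_mul_cancel_left] at this
      obtain ⟨v0, hv0B, hv0, hv01⟩ : ∃ v0, v0 ∈ Fix φ B ∧ t v0 = v0 ∧ v0 ≠ 1 := by
        by_contra hno
        have hneg : ∀ u ∈ Fix φ B, t u = u⁻¹ := by
          intro u hu
          refine eq_inv_of_mul_eq_one_right ?_
          by_contra hne
          refine hno ⟨u * t u, mul_mem hu ?_, by rw [map_mul, htt, mul_comm], hne⟩
          intro b hb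
          have h := congrArg t (hu _ (hBτ b hb))
          rwa [htc, hττ] at h
        -- then `A` fixes `v`
        have hA' : v ∈ Fix φ A := by
          intro x hx
          apply hfix2
          have hxv : φ x v ∈ Fix φ B := fun b hb => by
            rw [← hmulφ, hAc b (hB hb) x hx, hmulφ, hv b hb]
          have h2 : φ (x * τ x) v = v := hv _ (hinv x hx)
          have h3 : φ (τ x) v = φ x⁻¹ v := by
            conv_rhs => rw [← h2, ← hmulφ, inv_mul_cancel_left]
          have h5 := hneg _ hxv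
          rw [htc, hneg v hv, map_inv, h3, inv_inj] at h5
          rw [pow_two, hmulφ]
          conv_lhs => rw [← h5, ← hmulφ, mul_inv_cancel, honeφ]
        rw [hFixA, Subgroup.mem_bot] at hA'
        exact hv1 hA'
      have hcB : B.map (MulAut.conj c).toMonoidHom = B := by
        obtain ⟨hcle, hcidx, hcfix⟩ := hconjB c B hB hidx
        have hle : B.map (MulAut.conj c).toMonoidHom ≤ B := by
          intro y hy
          by_contra hyB
          have h := hcfix v0 hv0B
          rw [hF1 c hc v0 hv0] at h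
          exact hv01 (hhyp B hB hidx y (hcle hy) hyB v0 hv0B (h y hy))
        exact Subgroup.eq_of_le_of_card_ge hle (Subgroup.card_map_of_injective
          (f := (MulAut.conj c).toMonoidHom) (MulAut.conj c).injective).ge
      have hcmem : ∀ x ∈ B, c * x * c⁻¹ ∈ B := fun x hx => hcB ▸ ⟨x, hx, rfl⟩
      -- the key step: `c x c⁻¹ ≡ x^{±1}`
      have key : ∀ x ∈ A, x⁻¹ * (c * x * c⁻¹) ∈ B ∨ x * (c * x * c⁻¹) ∈ B := by
        intro x hx
        set y := c * x * c⁻¹ with hy
        have hyA : y ∈ A := hAn.conj_mem x hx c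
        by_contra hno
        rw [not_or] at hno
        have hxinv : ∀ z ∈ A, t (φ z v0) = φ z⁻¹ v0 := by
          intro z hz
          have h2 : φ (z * τ z) v0 = v0 := hv0B _ (hinv z hz)
          rw [htc, hv0]
          conv_rhs => rw [← h2, hmulφ, ← hmulφ, inv_mul_cancel, honeφ]
        have hw : φ c (φ x v0 * φ x⁻¹ v0) = φ x v0 * φ x⁻¹ v0 := hF1 c hc _ (by
          rw [map_mul, hxinv x hx, hxinv x⁻¹ (inv_mem hx), inv_inv, mul_comm])
        have hcc : ∀ z : G, φ c (φ z v0) = φ (c * z * c⁻¹) v0 := fun z => by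
          rw [hmulφ, hmulφ]
          congr 2
          conv_rhs => rw [← hF1 c hc v0 hv0, ← hmulφ, inv_mul_cancel, honeφ]
        rw [map_mul, hcc, hcc, show c * x⁻¹ * c⁻¹ = y⁻¹ by rw [hy]; group, ← hy] at hw
        set u := φ y v0 * (φ x v0)⁻¹ with hu
        have huB : u ∈ Fix φ B := fun b hb => by
          rw [hu, map_mul (φ b), map_inv (φ b), ← hmulφ b y, ← hmulφ b x, hAc b (hB hb) y hyA, hAc b (hB hb) x hx,
            hmulφ y b, hmulφ x b, hv0B b hb]
        have hufix : φ (x * y) u = u := by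
          have e1 : φ (x * y) (φ y⁻¹ v0) = φ x v0 := by rw [← hmulφ, mul_inv_cancel_right]
          have e2 : φ (x * y) (φ x⁻¹ v0) = φ y v0 := by rw [← hmulφ, hAc x hx y hyA, mul_inv_cancel_right]
          have e3 := congrArg (φ (x * y)) hw
          rw [map_mul (φ (x * y)), map_mul (φ (x * y)), e1, e2] at e3
          rw [hu, map_mul (φ (x * y)), map_inv (φ (x * y)), ← div_eq_mul_inv, ← div_eq_mul_inv, div_eq_div_iff_mul_eq_mul, e3,
            mul_comm]
        have hu1 : u = 1 := hhyp B hB hidx _ (mul_mem hx hyA) hno.2 u huB hufix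
        rw [hu, mul_inv_eq_one] at hu1
        refine hv01 (hhyp B hB hidx _ (mul_mem (inv_mem hx) hyA) hno.1 v0 hv0B ?_)
        rw [hmulφ, hu1, ← hmulφ, inv_mul_cancel, honeφ]
      have hsq : ∀ x ∈ A, x⁻¹ * (c ^ 2 * x * (c ^ 2)⁻¹) ∈ B := by
        intro x hx
        have hyA : c * x * c⁻¹ ∈ A := hAn.conj_mem x hx c
        have e : c ^ 2 * x * (c ^ 2)⁻¹ = c * (c * x * c⁻¹) * c⁻¹ := by rw [pow_two]; group
        rw [e]
        rcases key x hx with h1 | h1
        · have h2 := hcmem _ h1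
          have e2 : x⁻¹ * (c * (c * x * c⁻¹) * c⁻¹) =
              (x⁻¹ * (c * x * c⁻¹)) * (c * (x⁻¹ * (c * x * c⁻¹)) * c⁻¹) := by group
          rw [e2]; exact mul_mem h1 h2
        · have h2 := hcmem _ h1
          have e2 : x⁻¹ * (c * (c * x * c⁻¹) * c⁻¹) =
              (x * (c * x * c⁻¹))⁻¹ * (c * (x * (c * x * c⁻¹)) * c⁻¹) := by
            rw [show c * (x * (c * x * c⁻¹)) * c⁻¹ = c * x * c⁻¹ * (c * (c * x * c⁻¹) * c⁻¹) by group, mul_inv_rev,
              ← mul_assoc ((c * x * c⁻¹)⁻¹ * x⁻¹), mul_assoc (c * x * c⁻¹)⁻¹ x⁻¹, hAc x⁻¹ (inv_mem hx) _ hyA,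
              inv_mul_cancel_left]
          rw [e2]; exact mul_mem (inv_mem h1) h2
      obtain ⟨k, hk⟩ := hroot c
      have hpow : ∀ k : ℕ, ∀ x ∈ A, x⁻¹ * ((c ^ 2) ^ k * x * ((c ^ 2) ^ k)⁻¹) ∈ B := by
        intro k
        induction k with
        | zero => intro x _; simp
        | succ k ih =>
          intro x hx
          have h1 := ih x hx
          have h2 := hsq _ (hAn.conj_mem x hx ((c ^ 2) ^ k))
          have := mul_mem h1 h2
          convert this using 1
          rw [pow_succ' (c ^ 2) k]; group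
      have h3 := hpow k a ha
      rw [hk] at h3
      rwa [hAc _ (hAn.conj_mem a ha c) a⁻¹ (inv_mem ha)]
    · -- `τ` inverts nothing modulo `B`: `B` contains every inverted element
      push Not at h0
      obtain ⟨z, hz, hzτ, hzB⟩ := h0
      have hcz : c * z = z * c := hCcomm c z hc hzτ
      have hminus : ∀ w ∈ Fix φ B, t w = w⁻¹ := by
        have hmaps : ∀ w ∈ Fix φ B, φ z w * w⁻¹ ∈ Fix φ B := fun w hw => mul_mem (fun b hb => by
          rw [← hmulφ, hAc b (hB hb) z hz, hmulφ, hw b hb]) (inv_mem hw)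
        let f : Fix φ B → Fix φ B := fun w => ⟨φ z w * (w : V)⁻¹, hmaps w w.2⟩
        have hf : Function.Injective f := by
          intro w₁ w₂ e
          have e' : φ z w₁ * (w₁ : V)⁻¹ = φ z w₂ * (w₂ : V)⁻¹ := congrArg Subtype.val e
          refine Subtype.ext (mul_inv_eq_one.1 (hhyp B hB hidx z hz hzB _ (mul_mem w₁.2 (inv_mem w₂.2)) ?_))
          rw [map_mul, map_inv]
          calc φ z w₁ * (φ z w₂)⁻¹ = (φ z w₁ * (w₁ : V)⁻¹) * w₁ * (φ z w₂)⁻¹ := by group
            _ = (w₁ : V) * (w₂ : V)⁻¹ := by rw [e']; simp [mul_comm, mul_assoc, mul_left_comm]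
        intro w hw
        obtain ⟨⟨x, hx⟩, e⟩ := (Finite.injective_iff_surjective.1 hf) ⟨w, hw⟩
        have e' : φ z x * x⁻¹ = w := congrArg Subtype.val e
        have h1 := hF1 z hzτ (x * t x) (by rw [map_mul, htt, mul_comm])
        rw [map_mul] at h1
        have h3 : φ z (t x) = t (φ z x) := by rw [htc, hzτ]
        rw [h3] at h1
        rw [← e', map_mul, map_inv, mul_inv_rev, inv_inv, ← div_eq_mul_inv, ← div_eq_mul_inv,
          div_eq_div_iff_mul_eq_mul, mul_comm, h1]
      have hA1B : ∀ x ∈ A, τ x = x⁻¹ → x ∈ B := by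
        intro x hx hxτ
        by_contra hxB
        refine hv1 (hhyp B hB hidx x hx hxB v hv (hfix2 x v ?_))
        have hxv : φ x v ∈ Fix φ B := fun b hb => by rw [← hmulφ, hAc b (hB hb) x hx, hmulφ, hv b hb]
        have h1 := hminus _ hxv
        rw [htc, hxτ, hminus v hv, map_inv, inv_inj] at h1
        rw [pow_two, hmulφ]
        conv_lhs => rw [← h1, ← hmulφ, mul_inv_cancel, honeφ]
      apply hA1B _ (mul_mem (hAn.conj_mem a ha c) (inv_mem ha))
      have hzero : ∀ x ∈ A, τ x = x → c * x * c⁻¹ = x := fun x _ hx => by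
        rw [hCcomm c x hc hx, mul_inv_cancel_right]
      have h2 := hzero (a * τ a) (mul_mem ha (hAτ a ha)) (by rw [map_mul, hττ, hAc _ (hAτ a ha) a ha])
      rw [map_mul, map_mul, map_mul, map_inv, map_inv, hc]
      have hyA : c * a * c⁻¹ ∈ A := hAn.conj_mem a ha c
      have hya : c * τ a * c⁻¹ = (c * a * c⁻¹)⁻¹ * (a * τ a) := by
        rw [← h2]; group
      rw [hya, ← mul_assoc, mul_inv_cancel_right, show (c * a * c⁻¹ * a⁻¹)⁻¹ = a * (c * a * c⁻¹)⁻¹ by group,
        hAc a ha _ (inv_mem hyA)]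
  -- the fixed points of `τ` are trivial unless some element of `A` is fixed
  by_cases hA0 : ∀ a ∈ A, τ a = a → a = 1
  · have hinvA : ∀ a ∈ A, τ a = a⁻¹ := fun a ha =>
      eq_inv_of_mul_eq_one_right (hA0 _ (mul_mem ha (hAτ a ha)) (by rw [map_mul, hττ, hAc _ (hAτ a ha) a ha]))
    have hC1 : ∀ c, τ c = c → c = 1 := by
      intro c hc
      apply hinj
      rw [map_one]
      refine MulEquiv.ext fun v => ?_
      change φ c v = v
      have hminus : ∀ w, t w = w⁻¹ → φ c w = w := by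
        intro w hw
        have hu : φ c w * w⁻¹ ∈ Fix φ A := by
          intro x hx
          apply hfix2
          have h1 := hF1 c hc (φ x w * φ x⁻¹ w⁻¹) (by
            rw [map_mul, htc, htc, hinvA x hx, hinvA x⁻¹ (inv_mem hx), inv_inv, map_inv t, hw, inv_inv, mul_comm])
          have hswap : ∀ y ∈ A, φ c (φ y w) = φ y (φ c w) := fun y hy => by
            rw [← hmulφ, ← hmulφ, hCA c hc y hy]
          rw [map_mul (φ c), map_inv (φ x⁻¹), map_inv (φ c), hswap x hx, hswap x⁻¹ (inv_mem hx),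
            ← div_eq_mul_inv, ← div_eq_mul_inv, div_eq_div_iff_div_eq_div] at h1
          have h6 : φ x (φ c w * w⁻¹) = φ x⁻¹ (φ c w * w⁻¹) := by
            rw [map_mul (φ x), map_mul (φ x⁻¹), map_inv (φ x), map_inv (φ x⁻¹) w, ← div_eq_mul_inv, ← div_eq_mul_inv]
            exact h1
          rw [pow_two, hmulφ, h6, ← hmulφ, mul_inv_cancel, honeφ]
        rw [hFixA, Subgroup.mem_bot, mul_inv_eq_one] at hu
        exact hu
      have h1 := hF1 c hc (v * t v) (by rw [map_mul, htt, mul_comm])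
      have h2 := hminus (v * (t v)⁻¹) (by rw [map_mul, map_inv, htt, mul_inv_rev, inv_inv])
      have h3 : φ c (v ^ 2) = v ^ 2 := by
        rw [show v ^ 2 = (v * t v) * (v * (t v)⁻¹) by rw [pow_two]; simp [mul_comm, mul_left_comm, mul_assoc],
          map_mul, h1, h2]
      rw [map_pow] at h3
      refine mul_inv_eq_one.1 (hsq1 hoddV _ ?_)
      rw [mul_pow, h3, inv_pow, mul_inv_cancel]
    -- the sum over an orbit of `s` of the translates of a vector vanishes
    exfalso
    haveI : Fintype A := Fintype.ofFinite _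
    have hqr : q ≠ r := by
      intro e
      subst e
      letI : MulAction A V := MulAction.compHom V A.subtype
      have hPA : IsPGroup q A := fun x => ⟨1, Subtype.ext (by rw [pow_one, SubgroupClass.coe_pow]; exact hAexp x x.2)⟩
      have hPV : IsPGroup q V := fun x => ⟨1, by rw [pow_one]; exact hVq x⟩
      have hfp : MulAction.fixedPoints A V = ({1} : Set V) := by
        ext w
        constructor
        · intro hw
          have : w ∈ Fix φ A := fun b hb => hw ⟨b, hb⟩
          rwa [hFixA, Subgroup.mem_bot] at this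
        · rintro rfl x
          exact map_one (φ (x : G))
      have h := hPA.card_modEq_card_fixedPoints V
      rw [hfp, Nat.card_coe_set_eq ({1} : Set V), Set.ncard_singleton] at h
      obtain ⟨n, hn⟩ := IsPGroup.iff_card.1 hPV
      rcases Nat.eq_zero_or_pos n with rfl | hn0
      · haveI := hV1
        exact absurd (Finite.one_lt_card (α := V)) (by rw [hn, pow_zero]; exact lt_irrefl 1)
      · have h0 : Nat.card V ≡ 0 [MOD q] := Nat.modEq_zero_iff_dvd.2 (hn ▸ dvd_pow_self q hn0.ne')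
        exact (Fact.out : q.Prime).not_dvd_one (Nat.modEq_zero_iff_dvd.1 (h.symm.trans h0))
    have hprodA : ∀ (ρ : MulAut G), (∀ x ∈ A, ρ x ∈ A) → (∀ x ∈ A, ρ x = x → x = 1) → ∀ u : V,
        ∏ x : A, φ ((x : G)⁻¹ * ρ x) u = 1 := by
      intro ρ hρ hρf u
      let h : A → A := fun x => ⟨(x : G)⁻¹ * ρ x, mul_mem (inv_mem x.2) (hρ x x.2)⟩
      have hinj' : Function.Injective h := by
        intro x z e
        have e' : (x : G)⁻¹ * ρ x = (z : G)⁻¹ * ρ z := congrArg Subtype.val e
        have h1 : ρ ((z : G) * (x : G)⁻¹) = z * (x : G)⁻¹ := by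
          rw [map_mul, map_inv, mul_inv_eq_iff_eq_mul, mul_assoc, e', mul_inv_cancel_left]
        exact Subtype.ext (mul_inv_eq_one.1 (hρf _ (mul_mem z.2 (inv_mem x.2)) h1)).symm
      rw [show (∏ x : A, φ ((x : G)⁻¹ * ρ x) u) = ∏ x : A, φ (x : G) u from
        Fintype.prod_bijective h (Finite.injective_iff_bijective.1 hinj') _ _ fun x => rfl]
      have hfix : (∏ x : A, φ (x : G) u) ∈ Fix φ A := by
        intro b hb
        rw [map_prod]
        exact Fintype.prod_equiv (Equiv.mulLeft (⟨b, hb⟩ : A)) _ _ fun x => by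
          rw [← hmulφ]; rfl
      rwa [hFixA, Subgroup.mem_bot] at hfix
    have hστ : ∀ x ∈ A, (σ * τ) x = x → x = 1 := fun x _ hx => by
      refine hσf x ?_
      have h1 : σ (τ x) = x := hx
      have h2 : σ (σ (σ (σ x))) = x := DFunLike.congr_fun hσ4 x
      have h3 : σ (σ (σ x)) = x := h1
      calc σ x = σ (σ (σ (σ x))) := by rw [h3]
        _ = x := h2
    have hvA : ∀ v : V, v ^ Nat.card A = 1 := by
      intro v
      have hE : ∀ w : V, w * s w * t w * s (t w) = 1 := fun w => hsf _ (by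
        rw [map_mul, map_mul, map_mul, show s (s w) = t w from rfl, show s (s (t w)) = t (t w) from rfl, htt]
        simp [mul_comm, mul_left_comm, mul_assoc])
      have key : ∀ x : A, v * φ ((x : G)⁻¹ * σ x) (s v) * φ ((x : G)⁻¹ * τ x) (t v) *
          φ ((x : G)⁻¹ * (σ * τ) x) (s (t v)) = 1 := fun x => by
        have h := congrArg (φ (x : G)⁻¹) (hE (φ (x : G) v))
        rw [map_one, map_mul, map_mul, map_mul, htc, hcompat, hcompat, ← hmulφ, ← hmulφ, ← hmulφ, ← hmulφ,
          inv_mul_cancel, honeφ] at h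
        exact h
      have h := Finset.prod_eq_one (s := (Finset.univ : Finset A)) fun x _ => key x
      rw [Finset.prod_mul_distrib, Finset.prod_mul_distrib, Finset.prod_mul_distrib,
        hprodA σ hAσ (fun x _ => hσf x), hprodA τ hAτ hA0,
        hprodA (σ * τ) (fun x hx => hAσ _ (hAτ x hx)) hστ, mul_one, mul_one, mul_one, Finset.prod_const,
        Finset.card_univ, ← Nat.card_eq_fintype_card] at h
      exact h
    obtain ⟨n, hn⟩ := IsPGroup.iff_card.1 (fun x => ⟨1, Subtype.ext (by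
      rw [pow_one, SubgroupClass.coe_pow]; exact hAexp x x.2)⟩ : IsPGroup r A)
    haveI := hV1
    obtain ⟨v, hv⟩ := exists_ne (1 : V)
    refine hv (orderOf_eq_one_iff.1 (Nat.eq_one_of_dvd_coprimes ?_ (orderOf_dvd_of_pow_eq_one (hVq v))
      (orderOf_dvd_of_pow_eq_one (hvA v))))
    rw [hn]
    exact Nat.Coprime.pow_right n ((Nat.coprime_primes Fact.out Fact.out).2 hqr)
  push Not at hA0
  obtain ⟨a, ha, haτ, ha1⟩ := hA0
  -- a hyperplane with fixed points not containing `a`
  obtain ⟨B, hB, hidx, haB, v, hv, hv1⟩ : ∃ B ≤ A, B.relIndex A = r ∧ a ∉ B ∧ ∃ v ∈ Fix φ B, v ≠ 1 := by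
    by_contra hno
    push Not at hno
    refine ha1 (hinj ?_)
    rw [map_one]
    have htop := hweights (Fix φ (Subgroup.zpowers a)) fun B hB hidx v hv => ?_
    · exact MulEquiv.ext fun v => (htop ▸ Subgroup.mem_top v : v ∈ Fix φ _) a (Subgroup.mem_zpowers a)
    by_cases haB : a ∈ B
    · exact fun b hb => hv b (Subgroup.zpowers_le.2 haB hb)
    · rw [hno B hB hidx haB v hv]; exact one_mem _
  -- hyperplanes with a nontrivial fixed point not containing all of `A ∩ C` are `σ`-invariant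
  have hsplit : ∀ D ≤ A, D.relIndex A = r → ∀ w ∈ Fix φ D, w ≠ 1 → ∀ z ∈ A, τ z = z → z ∉ D →
      ∀ x ∈ A, τ x = x⁻¹ → x ∈ D := by
    intro D hD hDidx w hw hw1 z hz hzτ hzD x hx hxτ
    by_contra hxD
    refine hw1 (hhyp D hD hDidx x hx hxD w hw (hfix2 x w ?_))
    have hminus : ∀ u ∈ Fix φ D, t u = u⁻¹ := by
      let f : Fix φ D → Fix φ D := fun u => ⟨φ z u * (u : V)⁻¹, mul_mem (fun b hb => by
        rw [← hmulφ, hAc b (hD hb) z hz, hmulφ, u.2 b hb]) (inv_mem u.2)⟩
      have hf : Function.Injective f := by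
        intro w₁ w₂ e
        have e' : φ z w₁ * (w₁ : V)⁻¹ = φ z w₂ * (w₂ : V)⁻¹ := congrArg Subtype.val e
        refine Subtype.ext (mul_inv_eq_one.1 (hhyp D hD hDidx z hz hzD _ (mul_mem w₁.2 (inv_mem w₂.2)) ?_))
        rw [map_mul, map_inv]
        calc φ z w₁ * (φ z w₂)⁻¹ = (φ z w₁ * (w₁ : V)⁻¹) * w₁ * (φ z w₂)⁻¹ := by group
          _ = (w₁ : V) * (w₂ : V)⁻¹ := by rw [e']; simp [mul_comm, mul_assoc, mul_left_comm]
      intro u hu
      obtain ⟨⟨y, hy⟩, e⟩ := (Finite.injective_iff_surjective.1 hf) ⟨u, hu⟩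
      have e' : φ z y * y⁻¹ = u := congrArg Subtype.val e
      have h1 := hF1 z hzτ (y * t y) (by rw [map_mul, htt, mul_comm])
      rw [map_mul, show φ z (t y) = t (φ z y) by rw [htc, hzτ]] at h1
      rw [← e', map_mul, map_inv, mul_inv_rev, inv_inv, ← div_eq_mul_inv, ← div_eq_mul_inv,
        div_eq_div_iff_mul_eq_mul, mul_comm, h1]
    have hxw : φ x w ∈ Fix φ D := fun b hb => by rw [← hmulφ, hAc b (hD hb) x hx, hmulφ, hw b hb]
    have h1 := hminus _ hxw
    rw [htc, hxτ, hminus w hw, map_inv, inv_inj] at h1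
    rw [pow_two, hmulφ]
    conv_lhs => rw [← h1, ← hmulφ, mul_inv_cancel, honeφ]
  have hA1B := hsplit B hB hidx v hv hv1 a ha haτ haB
  have hBτ : ∀ x ∈ B, τ x ∈ B := by
    intro x hx
    have h1 := hA1B (x⁻¹ * τ x) (mul_mem (inv_mem (hB hx)) (hAτ x (hB hx))) (by
      rw [map_mul, map_inv, hττ, mul_inv_rev, inv_inv])
    have := mul_mem hx h1
    rwa [mul_inv_cancel_left] at this
  -- the only `τ`-invariant conjugate of `B` is `B`
  have huniq : ∀ g : G, (∀ x ∈ B, τ (g * x * g⁻¹) ∈ B.map (MulAut.conj g).toMonoidHom) →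
      B.map (MulAut.conj g).toMonoidHom = B := by
    intro g hg
    set k := g⁻¹ * τ g with hk
    have hkN : ∀ x ∈ B, k * x * k⁻¹ ∈ B := by
      intro x hx
      obtain ⟨y, hy, hye⟩ := hg _ (hBτ x hx)
      have : g * y * g⁻¹ = τ g * x * (τ g)⁻¹ := by
        rw [show g * y * g⁻¹ = (MulAut.conj g).toMonoidHom y from rfl, hye, map_mul, map_mul, map_inv, hττ]
      have e : y = k * x * k⁻¹ := by
        rw [hk]
        calc y = g⁻¹ * (g * y * g⁻¹) * g := by group
          _ = _ := by rw [this]; group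
      rwa [← e]
    have hkinv : τ k = k⁻¹ := by rw [hk, map_mul, map_inv, hττ, mul_inv_rev, inv_inv]
    obtain ⟨j, hj⟩ := hroot k
    have hpowN : ∀ i : ℕ, ∀ x ∈ B, k ^ i * x * (k ^ i)⁻¹ ∈ B := by
      intro i
      induction i with
      | zero => intro x hx; simpa using hx
      | succ i ih =>
        intro x hx
        rw [show k ^ (i + 1) * x * (k ^ (i + 1))⁻¹ = k * (k ^ i * x * (k ^ i)⁻¹) * k⁻¹ by
          rw [pow_succ']; group]
        exact hkN _ (ih x hx)
    have hcτ : τ (g * k ^ j) = g * k ^ j := by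
      rw [map_mul, map_pow, hkinv, show τ g = g * k by rw [hk, mul_inv_cancel_left]]
      nth_rewrite 1 [← hj]
      rw [← pow_mul, two_mul, pow_add, inv_pow]
      group
    apply Subgroup.eq_of_le_of_card_ge ?_ (Subgroup.card_map_of_injective
      (f := (MulAut.conj g).toMonoidHom) (MulAut.conj g).injective).ge
    rintro _ ⟨x, hx, rfl⟩
    have hj' : (k ^ j)⁻¹ * x * k ^ j ∈ B := by
      have := hpowN (orderOf (k ^ j) * j - j) x hx
      have e : k ^ (orderOf (k ^ j) * j - j) = (k ^ j)⁻¹ := by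
        refine eq_inv_of_mul_eq_one_left ?_
        rw [← pow_add, Nat.sub_add_cancel (Nat.le_mul_of_pos_left j (orderOf_pos _)), mul_comm, pow_mul,
          pow_orderOf_eq_one]
      rwa [e, inv_inv] at this
    have h1 := hCA _ hcτ _ (hB hj')
    change g * x * g⁻¹ ∈ B
    have : g * x * g⁻¹ = (k ^ j)⁻¹ * x * k ^ j := by
      calc g * x * g⁻¹ = (g * k ^ j) * ((k ^ j)⁻¹ * x * k ^ j) * (g * k ^ j)⁻¹ := by group
        _ = _ := by rw [h1, mul_inv_cancel_right]
    rwa [this]
  have hBn : B.Normal := by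
    suffices h : ∀ g : G, B.map (MulAut.conj g).toMonoidHom = B from
      ⟨fun x hx g => h g ▸ ⟨x, hx, rfl⟩⟩
    intro g
    by_contra hgB
    -- every conjugate other than `B` contains `A ∩ C`
    have hcont : ∀ g : G, B.map (MulAut.conj g).toMonoidHom ≠ B →
        ∀ z ∈ A, τ z = z → z ∈ B.map (MulAut.conj g).toMonoidHom := by
      intro g hgne z hz hzτ
      by_contra hzD
      obtain ⟨hDle, hDidx, hDfix⟩ := hconjB g B hB hidx
      have hgv : φ g v ≠ 1 := fun e => hv1 ((φ g).map_eq_one_iff.1 e)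
      have h1 := hsplit _ hDle hDidx _ (hDfix v hv) hgv z hz hzτ hzD
      refine hgne (huniq g fun x hx => ?_)
      have hmem : g * x * g⁻¹ ∈ B.map (MulAut.conj g).toMonoidHom := ⟨x, hx, rfl⟩
      have h2 := h1 ((g * x * g⁻¹)⁻¹ * τ (g * x * g⁻¹))
        (mul_mem (inv_mem (hDle hmem)) (hAτ _ (hDle hmem))) (by rw [map_mul, map_inv, hττ, mul_inv_rev, inv_inv])
      have := mul_mem hmem h2
      rwa [mul_inv_cancel_left] at this
    set b := g * a * g⁻¹ with hb
    have hbD : b ∉ B.map (MulAut.conj g).toMonoidHom := by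
      rintro ⟨x, hx, e⟩
      have e' : x = a := (MulAut.conj g).injective e
      exact haB (e' ▸ hx)
    have hτD : B.map (MulAut.conj (g⁻¹ * τ g)).toMonoidHom ≠ B := by
      intro e
      refine hgB (huniq g fun x hx => ?_)
      have hmem : g⁻¹ * τ g * τ x * (g⁻¹ * τ g)⁻¹ ∈ B := e ▸ ⟨τ x, hBτ x hx, rfl⟩
      refine ⟨_, hmem, ?_⟩
      change g * (g⁻¹ * τ g * τ x * (g⁻¹ * τ g)⁻¹) * g⁻¹ = τ (g * x * g⁻¹)
      rw [map_mul, map_mul, map_inv]
      group
    obtain ⟨x, hx, e⟩ := hcont _ hτD a ha haτ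
    have hbτ : τ b ∈ B.map (MulAut.conj g).toMonoidHom := by
      refine ⟨τ x, hBτ x hx, ?_⟩
      change g * τ x * g⁻¹ = τ b
      replace e : g⁻¹ * τ g * x * (g⁻¹ * τ g)⁻¹ = a := e
      have eb : b = τ g * x * (τ g)⁻¹ := by rw [hb, ← e]; group
      rw [eb, map_mul, map_mul, map_inv, hττ]
    apply hbD
    have hbA : b ∈ A := hAn.conj_mem a ha g
    have := mul_mem (hcont g hgB (b * τ b) (mul_mem hbA (hAτ b hbA))
      (by rw [map_mul, hττ, hAc _ (hAτ b hbA) b hbA])) (inv_mem hbτ)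
    rwa [mul_inv_cancel_right] at this
  have hBσ : ∀ x ∈ B, σ x ∈ B := by
    intro x hx
    obtain ⟨k, hk⟩ := hroot (σ x)
    rw [← hk]
    refine pow_mem ?_ k
    have hxA := hB hx
    have hp : x * τ x ∈ B := mul_mem hx (hBτ x hx)
    have hσp : σ (x * τ x) = (x * τ x)⁻¹ := hCinv _ (by rw [map_mul, hττ, hAc _ (hAτ x hxA) x hxA])
    have hm : σ (x * (τ x)⁻¹) ∈ B := hA1B _ (hAσ _ (mul_mem hxA (inv_mem (hAτ x hxA)))) (by
      rw [show τ (σ (x * (τ x)⁻¹)) = σ (τ (x * (τ x)⁻¹)) from rfl, map_mul τ, map_inv τ, hττ, ← map_inv σ,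
        mul_inv_rev, inv_inv])
    have : σ x ^ 2 = σ (x * τ x) * σ (x * (τ x)⁻¹) := by
      rw [← map_mul, ← map_pow, pow_two]
      congr 1
      rw [hAc x hxA (τ x) (hAτ x hxA)]
      calc x * x = τ x * x * ((τ x)⁻¹ * x) := by
            rw [hAc (τ x) (hAτ x hxA) x hxA]; group
        _ = _ := by rw [hAc _ (inv_mem (hAτ x hxA)) x hxA]
    rw [this, hσp]
    exact mul_mem (inv_mem hp) hm
  have hB1 : B = ⊥ := by
    have htop : Fix φ B = ⊤ := by
      refine (hirr _ ?_ ?_).resolve_left fun e => hv1 (Subgroup.mem_bot.1 (e ▸ hv))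
      · intro g u hu x hx
        have h := hu _ (hBn.conj_mem x hx g⁻¹)
        rw [inv_inv] at h
        calc φ x (φ g u) = φ g (φ (g⁻¹ * x * g) u) := by rw [← hmulφ, ← hmulφ]; congr 2; group
          _ = φ g u := by rw [h]
      · intro u hu x hx
        obtain ⟨y, hy, rfl⟩ : ∃ y ∈ B, σ y = x := by
          let f : B → B := fun y => ⟨σ y, hBσ y y.2⟩
          obtain ⟨y, hy⟩ := (Finite.injective_iff_surjective.1
            (fun y z e => Subtype.ext (σ.injective (congrArg Subtype.val e)) : Function.Injective f)) ⟨x, hx⟩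
          exact ⟨y, y.2, congrArg Subtype.val hy⟩
        rw [← hcompat, hu y hy]
    rw [eq_bot_iff]
    intro x hx
    rw [Subgroup.mem_bot]
    apply hinj
    rw [map_one]
    exact MulEquiv.ext fun u => (htop ▸ Subgroup.mem_top u : u ∈ Fix φ B) x hx
  subst hB1
  -- `A = ⟨a⟩` is central
  have hAz : A = Subgroup.zpowers a := by
    refine (Subgroup.eq_of_le_of_card_ge (Subgroup.zpowers_le.2 ha) ?_).symm
    rw [Nat.card_zpowers, orderOf_eq_prime (hAexp a ha) ha1, ← hidx, Subgroup.relIndex_bot_left]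
  have hcentral : ∀ g, g * a = a * g := by
    intro g
    obtain ⟨k, hk⟩ : g * a * g⁻¹ ∈ Subgroup.zpowers a := hAz ▸ hAn.conj_mem a ha g
    have hσa : σ a = a⁻¹ := hCinv a haτ
    have hσg : σ g * a * (σ g)⁻¹ = g * a * g⁻¹ := by
      have h1 := congrArg σ hk
      rw [map_mul, map_mul, map_inv, map_zpow, hσa, inv_zpow] at h1
      have h2 := congrArg (·⁻¹) h1
      simp only [inv_inv, mul_inv_rev, mul_assoc] at h2
      rw [← hk]
      simp only [mul_assoc]
      exact h2.symm
    have hM : g⁻¹ * σ g ∈ Subgroup.centralizer ({a} : Set G) := by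
      rw [Subgroup.mem_centralizer_singleton_iff]
      calc g⁻¹ * σ g * a = g⁻¹ * (σ g * a * (σ g)⁻¹) * σ g := by group
        _ = a * (g⁻¹ * σ g) := by rw [hσg]; group
    obtain ⟨x, hx, e⟩ := exists_inv_mul_eq σ (Subgroup.centralizer ({a} : Set G)) (fun x hx => by
      rw [Subgroup.mem_centralizer_singleton_iff] at hx ⊢
      have := congrArg σ (show x * a⁻¹ = a⁻¹ * x from (Commute.inv_right (show Commute x a from hx)).eq)
      rwa [map_mul, map_mul, map_inv, hσa, inv_inv] at this) (fun x _ => hσf x) hM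
    have : σ (g * x⁻¹) = g * x⁻¹ := by
      rw [map_mul, map_inv, mul_inv_eq_iff_eq_mul, mul_assoc, e, mul_inv_cancel_left]
    rw [mul_inv_eq_one.1 (hσf _ this)]
    exact Subgroup.mem_centralizer_singleton_iff.1 hx
  have hV0 : ∀ w, t w = w → w = 1 := by
    intro w hw
    have : w ∈ Fix φ A := by
      intro x hx
      obtain ⟨i, rfl⟩ : x ∈ Subgroup.zpowers a := hAz ▸ hx
      exact hF1 _ (by rw [map_zpow, haτ]) w hw
    rwa [hFixA, Subgroup.mem_bot] at this
  have htinv : ∀ w, t w = w⁻¹ := fun w =>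
    eq_inv_of_mul_eq_one_right (hV0 _ (by rw [map_mul, htt, mul_comm]))
  have hall : ∀ g, τ g = g := by
    intro g
    apply hinj
    refine MulEquiv.ext fun w => ?_
    have := htc g w⁻¹
    rw [htinv, map_inv t, htinv w, inv_inv, map_inv (φ g), inv_inv] at this
    exact this.symm
  exact fun g => hall g

/-- The acting group is abelian. -/
theorem core (φ : G →* MulAut V) (hinj : Function.Injective φ) (hsol : Group.IsSolvable G)
    {q : ℕ} [Fact q.Prime] (hVq : ∀ v : V, v ^ q = 1) (hV1 : Nontrivial V)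
    (σ : MulAut G) (s : MulAut V) (hσ4 : σ ^ 4 = 1) (hs4 : s ^ 4 = 1)
    (hcompat : ∀ g v, s (φ g v) = φ (σ g) (s v))
    (hσf : ∀ x, σ x = x → x = 1) (hsf : ∀ v, s v = v → v = 1)
    (hirr : ∀ U : Subgroup V, (∀ g, ∀ u ∈ U, φ g u ∈ U) → (∀ u ∈ U, s u ∈ U) → U = ⊥ ∨ U = ⊤) :
    ∀ g h : G, g * h = h * g := by
  have hf := core_fixed φ hinj hsol hVq hV1 σ s hσ4 hs4 hcompat hσf hsf hirr
  intro g h
  have h1 := map_eq_inv σ hσf (hf (g * h))
  rw [map_mul, map_eq_inv σ hσf (hf g), map_eq_inv σ hσf (hf h), mul_inv_rev] at h1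
  simpa using (congrArg (·⁻¹) h1).symm

/-- Quotient of a fixed-point-free automorphism. -/
theorem quotient_fpf (σ : MulAut G) (hf : ∀ x, σ x = x → x = 1) (N : Subgroup G) [N.Normal]
    (hN : ∀ x ∈ N, σ x ∈ N) (g : G) (h : g⁻¹ * σ g ∈ N) : g ∈ N := by
  obtain ⟨x, hx, e⟩ := exists_inv_mul_eq σ N hN (fun x _ => hf x) h
  have : σ (g * x⁻¹) = g * x⁻¹ := by
    rw [map_mul, map_inv, mul_inv_eq_iff_eq_mul, mul_assoc, e, mul_inv_cancel_left]
  rwa [mul_inv_eq_one.1 (hf _ this)]

end CfsgLib.FpfFour
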